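import Cfsg.Agent.H490.OZ.Six
import Cfsg.Agent.SmallSimple.SylowPrimeCount

/-!
# One vanishing class: `p = 7`, `|C(z)| = 56` (helper490, S4842)

`C(z) = ⟨z⟩ × K`, `K` a group of order eight: an orbit of two characters of `K` has a zero.
-/

set_option autoImplicit false
set_option linter.unusedSectionVars false

namespace Cfsg.Agent.H490.OZ

open Cfsg Subgroup
open Cfsg.Agent.Characters.Core Cfsg.Agent.Characters.Linear
open Cfsg.Agent.SmallSimple.ThetaSetup Cfsg.Agent.SmallSimple.ThetaOrtho Cfsg.Agent.SmallSimple.ThetaCount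
open Cfsg.Agent.SmallSimple.TheoremC Cfsg.Agent.SmallSimple.TheoremCCor
open Cfsg.Agent.H732.VZ (One)
open Cfsg.Agent.H849.OZ
open Cfsg.Agent.H604.OZ (cent)

universe u

/-- two irreducible characters of the same degree of a group of order eight -/
theorem exists_zero_sum {K : Type u} [Group K] [Finite K] (h8 : Nat.card K = 8) {θ θ' : IrrCharacter K} (hne : θ ≠ θ')
    (h1 : (θ : K → ℂ) 1 = (θ' : K → ℂ) 1) : ∃ y : K, (θ : K → ℂ) y + (θ' : K → ℂ) y = 0 := by
  classical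
  have hd : ∀ χ : IrrCharacter K, ((charDegree (χ : K → ℂ) : ℕ) : ℂ) = (χ : K → ℂ) 1 := fun χ =>
    Cfsg.Agent.H686.CharKit.charDegree_irr χ
  have hdd : charDegree (θ : K → ℂ) = charDegree (θ' : K → ℂ) := by
    have h2 := hd θ
    rw [h1, ← hd θ'] at h2
    exact_mod_cast h2
  by_cases hm : charDegree (θ : K → ℂ) = 1
  · obtain ⟨f, hf⟩ := exists_hom_of_isIrrCharacter θ.2 (by rw [← hd, hm]; norm_num)
    obtain ⟨f', hf'⟩ := exists_hom_of_isIrrCharacter θ'.2 (by rw [← hd, ← hdd, hm]; norm_num)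
    have hff : f ≠ f' := by
      rintro rfl
      exact hne (Subtype.ext (hf.trans hf'.symm))
    obtain ⟨y, hy⟩ : ∃ y, f y ≠ f' y := by
      by_contra hcon
      push Not at hcon
      exact hff (MonoidHom.ext hcon)
    have hy8 : y ^ 8 = 1 := by rw [← h8]; exact pow_card_eq_one'
    obtain ⟨a, ha⟩ : ∃ a : ℂ, a = ((f y / f' y : ℂˣ) : ℂ) := ⟨_, rfl⟩
    have ha8 : a ^ 8 = 1 := by
      rw [ha, ← Units.val_pow_eq_pow_val, div_pow, ← map_pow, ← map_pow, hy8, map_one, map_one, div_one, Units.val_one]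
    have ha1 : a ≠ 1 := by
      intro h
      apply hy
      rw [ha] at h
      exact div_eq_one.1 (Units.ext h)
    have key : a = -1 ∨ a ^ 2 = -1 ∨ a ^ 4 = -1 := by
      have h2 : (a - 1) * ((a + 1) * ((a ^ 2 + 1) * (a ^ 4 + 1))) = 0 := by
        linear_combination ha8
      rcases mul_eq_zero.1 h2 with h3 | h3
      · exact absurd (sub_eq_zero.1 h3) ha1
      rcases mul_eq_zero.1 h3 with h4 | h4
      · exact Or.inl (eq_neg_of_add_eq_zero_left h4)
      rcases mul_eq_zero.1 h4 with h5 | h5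
      · exact Or.inr (Or.inl (eq_neg_of_add_eq_zero_left h5))
      · exact Or.inr (Or.inr (eq_neg_of_add_eq_zero_left h5))
    obtain ⟨i, hi⟩ : ∃ i : ℕ, a ^ i = -1 := by
      rcases key with h | h | h
      · exact ⟨1, by rw [pow_one, h]⟩
      · exact ⟨2, h⟩
      · exact ⟨4, h⟩
    refine ⟨y ^ i, ?_⟩
    rw [hf, hf']
    show ((f (y ^ i) : ℂˣ) : ℂ) + ((f' (y ^ i) : ℂˣ) : ℂ) = 0
    have h3 : ((f (y ^ i) / f' (y ^ i) : ℂˣ) : ℂ) = -1 := by
      rw [map_pow, map_pow, ← div_pow, Units.val_pow_eq_pow_val, ← ha, hi]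
    rw [Units.val_div_eq_div_val, div_eq_iff (Units.ne_zero _)] at h3
    rw [h3]; ring
  · exfalso
    have hfin : Finite (IrrCharacter K) := finite_irr
    have := Fintype.ofFinite (IrrCharacter K)
    have hsum := Cfsg.Agent.H686.CharKit.sum_deg_sq (G := K)
    rw [h8] at hsum
    have hpos : 2 ≤ charDegree (θ : K → ℂ) := by
      have := Cfsg.Agent.H686.CharKit.charDegree_pos θ
      omega
    obtain ⟨τ, hτ⟩ : ∃ τ : IrrCharacter K, charDegree (τ : K → ℂ) = 1 := by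
      obtain ⟨χ, hχ⟩ := (linearEquiv K (1 : K →* ℂˣ))
      refine ⟨χ, ?_⟩
      have h2 := hd χ
      rw [hχ] at h2
      exact_mod_cast h2
    have h2 : ∑ χ ∈ ({τ, θ, θ'} : Finset (IrrCharacter K)), charDegree (χ : K → ℂ) ^ 2 ≤ 8 := by
      rw [← hsum]
      exact Finset.sum_le_sum_of_subset (Finset.subset_univ _)
    have hτθ : τ ≠ θ := by rintro rfl; omega
    have hτθ' : τ ≠ θ' := by rintro rfl; omega
    rw [Finset.sum_insert (by simp [hτθ, hτθ']), Finset.sum_pair hne, hτ, ← hdd] at h2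
    nlinarith

variable {G : Type u} [Group G] [Finite G] [IsSimpleGroup G]

/-- **`p = 7`, `|C(z)| = 56`.** -/
theorem mod_eight {χ : IrrCharacter G} {x : G} (h : One χ x) (hd : 7 ∣ Nat.card G) (hsq : ¬ 7 ^ 2 ∣ Nat.card G)
    (hG : Nat.card G ≠ 7) {z : G} (hz : orderOf z = 7) (hC : Nat.card (centralizer ({z} : Set G)) = 8 * 7)
    (h4 : 4 ≤ cent x) : charDegree (χ : G → ℂ) % 7 = 1 ∨ charDegree (χ : G → ℂ) % 7 = 7 - 1 := by
  classical
  have hp : Nat.Prime 7 := by norm_num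
  have hF : Fact (Nat.Prime 7) := ⟨hp⟩
  have hx : ¬ 7 ∣ orderOf x := not_dvd_x hp hd hsq hz (by rw [hC]; norm_num) h
  obtain ⟨P, hPz, hP⟩ := exists_sylow hp hsq hz
  obtain ⟨K, hK⟩ := exists_isComp P hP
  have hzP : z ∈ (P : Subgroup G) := by rw [hPz]; exact mem_zpowers z
  have hz1 : z ≠ 1 := by
    rintro rfl
    rw [orderOf_one] at hz
    norm_num at hz
  have hw2 := normalizer_ne hd hG (P := P) rfl
  have hK8 : Nat.card K = 8 := by
    have h1 := Cfsg.Agent.H849.OZ.card_centralizer hK hP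
    rw [← Blocks.CyclicOrtho.centralizer_eq P hP hzP hz1, hC] at h1
    omega
  have hw6 := Nat.le_of_dvd (by norm_num) (SmallSimple.SylowPrimeCount.relIndex_dvd_pred hp (P := (P : Subgroup G)) hP)
  obtain ⟨θ, ε, hε, hval, ⟨k, hk⟩, hc⟩ :=
    five hK hP h hx rfl (fun e t het ht he => arith h4 le_rfl hw2 het ht he)
  have hmem : θ ∈ orb P K (θ : K → ℂ) := mem_orb.2 ⟨1, one_mem _, tw_one _⟩
  have hT : (orb P K (θ : K → ℂ)).card ≤ 2 := by
    by_contra hcon
    push Not at hcon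
    have h1 : 2 ≤ (orb P K (θ : K → ℂ)).card - 1 := by omega
    have h2 : 4 * (2 * (7 - 1)) ≤ Nat.card (centralizer ({x} : Set G)) * (((orb P K (θ : K → ℂ)).card - 1) * (7 - 1)) :=
      Nat.mul_le_mul h4 (Nat.mul_le_mul h1 le_rfl)
    have h3 : (centralizer ((P : Subgroup G) : Set G)).relIndex (normalizer ((P : Subgroup G) : Set G)) * 7 ≤ 6 * 7 :=
      Nat.mul_le_mul hw6 le_rfl
    have h5 := h2.trans (hc.trans h3)
    norm_num at h5
  obtain ⟨u, hu, hu1⟩ := exists_ne_one hP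
  have hnz : ∀ y : K, ∑ θ' ∈ orb P K (θ : K → ℂ), (θ' : K → ℂ) y ≠ 0 := by
    intro y hy
    have h4 : (χ : G → ℂ) (u * y) = 0 := by
      rw [hval u hu hu1 y, hy, mul_zero]
    have h5 : 7 ∣ orderOf (u * (y : G)) := by
      have := Fintype.ofFinite G
      exact mem_Sg.1 (Dg_sub hK hP (mem_Dg.2 ⟨u, hu, hu1, y, y.2, rfl⟩))
    obtain ⟨a, ha⟩ := isConj_iff.1 (h.uniq _ h4)
    apply hx
    rwa [← ha, ← MulAut.conj_apply, MulEquiv.orderOf_eq] at h5
  have hone : orb P K (θ : K → ℂ) = {θ} := by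
    refine Finset.eq_singleton_iff_unique_mem.2 ⟨hmem, fun θ' hθ' => ?_⟩
    by_contra hne
    have h1 : orb P K (θ : K → ℂ) = {θ, θ'} := by
      symm
      refine Finset.eq_of_subset_of_card_le ?_ ?_
      · intro τ hτ
        rw [Finset.mem_insert, Finset.mem_singleton] at hτ
        rcases hτ with rfl | rfl
        · exact hmem
        · exact hθ'
      · rw [Finset.card_pair (Ne.symm hne)]
        exact hT
    have h2 : (θ : K → ℂ) 1 = (θ' : K → ℂ) 1 := by
      obtain ⟨n, hn, h3⟩ := mem_orb.1 hθ'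
      rw [← h3, tw_apply hK _ hn]
      refine congrArg (θ : K → ℂ) ?_
      apply Subtype.ext
      show (1 : G) = n * 1 * n⁻¹
      group
    obtain ⟨y, hy⟩ := exists_zero_sum hK8 (Ne.symm hne) h2
    apply hnz y
    rw [h1, Finset.sum_pair (Ne.symm hne)]
    exact hy
  have h6 : (θ : K → ℂ) 1 = 1 := deg_one_of_no_zero θ fun y hy => hnz y (by rw [hone, Finset.sum_singleton, hy])
  rw [hone, Finset.sum_singleton, h6, mul_one] at hk
  have h7 : ((charDegree (χ : G → ℂ) : ℤ)) = ε + (7 : ℕ) * k := by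
    have h8 := Cfsg.Agent.H686.CharKit.charDegree_irr χ
    rw [hk] at h8
    exact_mod_cast h8
  exact mod_of (by norm_num) hε h7

end Cfsg.Agent.H490.OZ
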