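import Cfsg.Agent.H849.OZ.TFive
import Cfsg.Agent.H733.OZ.Good
import Cfsg.Agent.H733.OZ.Six
import Cfsg.Agent.H672.OZ.Full

/-!
# One vanishing class: primes `p ∥ |G|` with `|C(z)| = 2 p`, `|C(z)| = 6 p` (helper490, S4842)

* `nonab_of_six` : `|C(z)| = 6 p`, no element of order `6 p` : `C(z) / ⟨z⟩` is not abelian;
* `mod_two`, `mod_six` : `d ≡ ± 1` modulo `p` (all cases of `c`).
-/

set_option autoImplicit false

open Cfsg Cfsg.Agent.Characters Cfsg.Agent.H732.VZ Cfsg.Agent.H604.OZ Subgroup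

namespace Cfsg.Agent.H490.OZ

universe u

variable {G : Type u} [Group G] [Finite G]

theorem mem_cz {z g : G} : g ∈ centralizer ({z} : Set G) ↔ g * z = z * g := mem_centralizer_singleton_iff

/-- the class hypothesis for `|C(z)| = 6 p` -/
theorem classes_six {z : G} {p : ℕ} (hp : p.Prime) (h7 : 7 ≤ p) (hz : orderOf z = p)
    (hC : Nat.card (centralizer ({z} : Set G)) = 6 * p) (hno : ∀ g : G, orderOf g ≠ 6 * p)
    (y y' : G) (hy : z * y = y * z) (hy' : z * y' = y' * z) (hyr : ¬ p ∣ orderOf y) (hyy : orderOf y = orderOf y') :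
    ∃ k : G, z * k = k * z ∧ k * y * k⁻¹ = y' := by
  set C := centralizer ({z} : Set G) with hCdef
  have hzC : z ∈ C := mem_cz.2 rfl
  set Z : Subgroup C := zpowers ⟨z, hzC⟩ with hZ
  have hZn : Z.Normal := by
    refine ⟨fun a ha g => ?_⟩
    obtain ⟨i, rfl⟩ := mem_zpowers_iff.1 ha
    have h1 : Commute g (⟨z, hzC⟩ : C) := Subtype.ext (mem_cz.1 g.2)
    have h2 := h1.zpow_right i
    rw [h2.eq, mul_inv_cancel_right]
    exact ha
  have hZc : Nat.card Z = p := by rw [hZ, Nat.card_zpowers, orderOf_mk, hz]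
  have hQ : Nat.card (C ⧸ Z) = 6 := by
    have h1 := Z.card_mul_index
    rw [hZc, hC, Subgroup.index_eq_card, mul_comm] at h1
    exact Nat.eq_of_mul_eq_mul_right hp.pos h1
  have hne : ∃ a b : C ⧸ Z, a * b ≠ b * a := by
    by_contra hcon
    push Not at hcon
    have h2 : Fact (Nat.Prime 2) := ⟨Nat.prime_two⟩
    have h3 : Fact (Nat.Prime 3) := ⟨Nat.prime_three⟩
    obtain ⟨a, ha⟩ := exists_prime_orderOf_dvd_card' (G := C) 2 (by rw [hC]; exact ⟨3 * p, by ring⟩)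
    obtain ⟨b, hb⟩ := exists_prime_orderOf_dvd_card' (G := C) 3 (by rw [hC]; exact ⟨2 * p, by ring⟩)
    have h4 : (QuotientGroup.mk' Z) (a * b * a⁻¹ * b⁻¹) = 1 := by
      rw [map_mul, map_mul, map_mul, map_inv, map_inv, hcon ((QuotientGroup.mk' Z) a) ((QuotientGroup.mk' Z) b)]
      group
    rw [QuotientGroup.mk'_apply, QuotientGroup.eq_one_iff] at h4
    obtain ⟨w, hw⟩ : ∃ w, w = a * b * a⁻¹ * b⁻¹ := ⟨_, rfl⟩
    rw [← hw] at h4
    have hwz : w ^ p = 1 := by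
      have h5 := pow_card_eq_one' (x := (⟨w, h4⟩ : Z))
      rw [hZc] at h5
      exact congrArg Subtype.val h5
    have hwc : ∀ g : C, Commute g w := by
      intro g
      obtain ⟨i, hi⟩ := mem_zpowers_iff.1 h4
      rw [← hi]
      exact (show Commute g (⟨z, hzC⟩ : C) from Subtype.ext (mem_cz.1 g.2)).zpow_right i
    have h5 : a * b * a⁻¹ = w * b := by rw [hw]; group
    have h6 : w ^ 3 = 1 := by
      have h7 : (a * b * a⁻¹) ^ 3 = 1 := by
        rw [conj_pow, ← hb, pow_orderOf_eq_one]; group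
      rw [h5, ((hwc b).symm).mul_pow, ← hb, pow_orderOf_eq_one, mul_one, hb] at h7
      exact h7
    have h7 : w = 1 := by
      rw [← orderOf_eq_one_iff, ← Nat.dvd_one]
      have h8 : Nat.Coprime p 3 := (Nat.coprime_primes hp Nat.prime_three).2 (by omega)
      exact (Nat.dvd_gcd (orderOf_dvd_of_pow_eq_one hwz) (orderOf_dvd_of_pow_eq_one h6)).trans (dvd_of_eq h8)
    have hab : Commute a b := by
      rw [h7, one_mul, mul_inv_eq_iff_eq_mul] at h5
      exact h5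
    have hab6 : orderOf (a * b) = 6 := by
      rw [hab.orderOf_mul_eq_mul_orderOf_of_coprime (by rw [ha, hb]; norm_num), ha, hb]
    have hzab : Commute (a * b) (⟨z, hzC⟩ : C) := Subtype.ext (mem_cz.1 (a * b).2)
    have h9 : orderOf ((a * b) * ⟨z, hzC⟩) = 6 * p := by
      rw [hzab.orderOf_mul_eq_mul_orderOf_of_coprime, hab6, orderOf_mk, hz]
      rw [hab6, orderOf_mk, hz]
      have h2p : Nat.Coprime 2 p := (Nat.coprime_primes Nat.prime_two hp).2 (by omega)
      have h3p : Nat.Coprime 3 p := (Nat.coprime_primes Nat.prime_three hp).2 (by omega)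
      exact Nat.Coprime.mul_left h2p h3p
    exact hno _ ((orderOf_coe _).trans h9)
  refine Cfsg.Agent.H733.OZ.classes_of hp hz (QuotientGroup.mk' Z) (QuotientGroup.mk'_surjective Z) (fun k hk => ?_)
    (fun a b hab => Cfsg.Agent.H733.OZ.six_conj hQ hne hab) y y' hy hy' hyr hyy
  rw [QuotientGroup.mk'_apply, QuotientGroup.eq_one_iff] at hk
  obtain ⟨i, hi⟩ := mem_zpowers_iff.1 hk
  exact ⟨i, congrArg Subtype.val hi⟩

variable {χ : IrrCharacter G} {x : G}

/-- `x` is `p`-regular -/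
theorem not_dvd_x [IsSimpleGroup G] {p : ℕ} (hp : p.Prime) (hd : p ∣ Nat.card G) (hsq : ¬ p ^ 2 ∣ Nat.card G) {z : G} (hz : orderOf z = p)
    (hC : p < Nat.card (centralizer ({z} : Set G))) (h : One χ x) : ¬ p ∣ orderOf x := by
  rcases Nat.lt_or_ge p (cent x) with h1 | h1
  · exact Cfsg.Agent.H733.OZ.not_dvd_orderOf h hp (n := 1) (by rw [pow_one]; exact hd) hsq (by rw [pow_one]; exact h1)
  · exact Cfsg.Agent.H849.OZ.not_dvd_of_le hp hsq hz hC h1

/-- `|C(z)| = 2 p` -/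
theorem mod_two [IsSimpleGroup G] (h : One χ x) {p : ℕ} (hp : p.Prime) (h7 : 7 ≤ p) (hd : p ∣ Nat.card G)
    (hsq : ¬ p ^ 2 ∣ Nat.card G) (hG : Nat.card G ≠ p)
    (hC : ∀ y : G, orderOf y = p → Nat.card (centralizer ({y} : Set G)) = 2 * p) (h4 : 4 ≤ cent x) :
    charDegree (χ : G → ℂ) % p = 1 ∨ charDegree (χ : G → ℂ) % p = p - 1 := by
  have hF : Fact p.Prime := ⟨hp⟩
  obtain ⟨z, hz⟩ := exists_prime_orderOf_dvd_card' p hd
  exact Cfsg.Agent.H849.OZ.mod_of_two hp h7 hsq hG hz (hC z hz) h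
    (not_dvd_x hp hd hsq hz (by rw [hC z hz]; omega) h) h4

/-- `|C(z)| = 6 p`, no element of order `6 p` -/
theorem mod_six [IsSimpleGroup G] (h : One χ x) {p : ℕ} (hp : p.Prime) (h7 : 7 ≤ p) (hd : p ∣ Nat.card G)
    (hsq : ¬ p ^ 2 ∣ Nat.card G) (hG : Nat.card G ≠ p)
    (hC : ∀ y : G, orderOf y = p → Nat.card (centralizer ({y} : Set G)) = 6 * p) (hno : ∀ g : G, orderOf g ≠ 6 * p)
    (h4 : 4 ≤ cent x) :
    charDegree (χ : G → ℂ) % p = 1 ∨ charDegree (χ : G → ℂ) % p = p - 1 := by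
  have hF : Fact p.Prime := ⟨hp⟩
  obtain ⟨z, hz⟩ := exists_prime_orderOf_dvd_card' p hd
  exact Cfsg.Agent.H849.OZ.mod_of_classes hp h7 hsq hG hz (classes_six hp h7 hz (hC z hz) hno) h
    (not_dvd_x hp hd hsq hz (by rw [hC z hz]; omega) h) h4

end Cfsg.Agent.H490.OZ
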