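import Cfsg.Agent.H490.OZ.SixteenA
import Cfsg.Agent.H153.ZerosMono

/-!
# An element of order 16 of `Co₂`: the centralizer has order at most 32, and it is rational (helper490)
-/

set_option autoImplicit false
open scoped Pointwise

namespace Cfsg.Agent.H490.OZ.Sixteen

open Cfsg Cfsg.Agent.SporadicA.GolayBase Cfsg.Agent.SporadicA.GolayPerm
open Cfsg.Agent.SporadicStructure.M24El Cfsg.Agent.SporadicA.Co0Mono
open Cfsg.Agent.SporadicStructure
open Cfsg.Agent.Co2Type.Mono
open Cfsg.Agent.H153.Zeros (mpw peq peq_iff mo2_pow)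
open Subgroup (centralizer mem_centralizer_singleton_iff)

/-! ### Signed permutations -/

/-- A signed permutation of the frame is `mo m P`. -/
theorem exists_mo {g : Co0} (hg : g ∈ SporadicA.Co1Simple.N) :
    ∃ m P, isCode m = true ∧ ok P = true ∧ P < 2 ^ 120 ∧ g = mo m P := by
  obtain ⟨σ, hσ, c, hc, h⟩ := StdCross.exists_signedPerm g ((SporadicA.Co1Simple.mem_N_iff _).1 hg)
  obtain ⟨P, hP, hlt, hel⟩ := exists_el ⟨σ, hσ⟩
  obtain ⟨w, hw, hwc⟩ := hc
  obtain ⟨m, hm, hcd⟩ := exists_cd ⟨w, hw⟩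
  refine ⟨m, P, hm, hP, hlt, ?_⟩
  apply Co0Base.co0_ext
  intro v
  apply Subtype.ext
  funext p
  rw [h, Co0Base.signedPerm_apply]
  unfold mo
  rw [mul_smul, signCo0_smul, signMap_apply, permCo0_smul, permMap_apply, hcd, hel, ← hwc]
  show _ = sgn (w p) * (v : GolayPt → ℤ) (σ.symm p)
  have h2 : w p = 0 ∨ w p = 1 := by
    have : ∀ a : ZMod 2, a = 0 ∨ a = 1 := by decide
    exact this _
  have h3 : p ∈ support₂ w ↔ w p ≠ 0 := by simp [support₂]
  rcases h2 with h2 | h2
  · rw [if_neg (by rw [h3]; exact fun h => h h2), h2, sgn_zero, one_mul]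
  · rw [if_pos (by rw [h3, h2]; decide), h2, sgn_one, neg_one_mul]

/-- A signed permutation fixing `u`. -/
theorem inE_okP {m P : ℕ} (hm : isCode m = true) (hP : ok P = true) (h : mo m P • Spor.leechU = Spor.leechU) :
    inE m = true ∧ okP P = true := by
  have hp := (ok_iff.1 hP).1
  have key : ∀ q : ℕ, q < 24 → q = 0 ∨ q = 23 → (papp P q = 0 ∨ papp P q = 23) ∧ m.testBit (papp P q) = false := by
    intro q hq hq'
    have h1 := congrArg (fun v : leechLattice => (v : GolayPt → ℤ) (permOf P hp (pt q))) h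
    unfold mo at h1
    rw [mul_smul, signCo0_smul, signMap_apply, permCo0_smul, permMap_apply, coe_cd hm, word_apply, coe_el hP,
      Equiv.symm_apply_apply, leechU_apply, leechU_apply, idx_permOf, idx_pt hq, if_pos hq'] at h1
    by_cases h2 : papp P q = 0 ∨ papp P q = 23
    · refine ⟨h2, ?_⟩
      rw [if_pos h2] at h1
      cases hb : m.testBit (papp P q) with
      | false => rfl
      | true =>
        rw [hb, if_pos rfl, sgn_one] at h1
        omega
    · rw [if_neg h2] at h1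
      exfalso
      cases hb : m.testBit (papp P q) with
      | false =>
        rw [hb] at h1
        simp [sgn_zero] at h1
      | true =>
        rw [hb, if_pos rfl, sgn_one] at h1
        omega
  obtain ⟨a1, a2⟩ := key 0 (by norm_num) (Or.inl rfl)
  obtain ⟨b1, b2⟩ := key 23 (by norm_num) (Or.inr rfl)
  have hne : papp P 0 ≠ papp P 23 := fun h => by
    have := papp_injOn hp (by norm_num) (by norm_num) h
    omega
  rw [inE_iff, okP_iff]
  rcases a1 with a1 | a1 <;> rcases b1 with b1 | b1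
  · exact absurd (a1.trans b1.symm) hne
  · rw [a1] at a2
    rw [b1] at b2
    exact ⟨⟨hm, a2, b2⟩, hP, Or.inl ⟨a1, b1⟩⟩
  · rw [a1] at a2
    rw [b1] at b2
    exact ⟨⟨hm, b2, a2⟩, hP, Or.inr ⟨a1, b1⟩⟩
  · exact absurd (a1.trans b1.symm) hne

/-- the data of an element commuting with `y` -/
structure Dat (g : Spor.Co2) (m P : ℕ) : Prop where
  inE : inE m = true
  okP : okP P = true
  lt : P < 2 ^ 120
  eq : toCo0 g = mo m P
  sg : m ^^^ pimg P n0 = n0 ^^^ pimg Q0 m
  pm : ∀ i < 24, papp P (papp Q0 i) = papp Q0 (papp P i)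

theorem exists_dat {g : Spor.Co2} (hg : g ∈ centralizer ({mo2 n0 Q0} : Set Spor.Co2)) : ∃ m P, Dat g m P := by
  have h1 := congrArg toCo0 (mem_centralizer_singleton_iff.1 hg)
  rw [map_mul, map_mul, toCo0_mo2 n0_inE Q0_ok] at h1
  obtain ⟨m, P, hm, hP, hlt, he⟩ := exists_mo (mem_N h1)
  have h2 := toCo0_smul g
  rw [he] at h2
  obtain ⟨hmE, hPk⟩ := inE_okP hm hP h2
  rw [he, mo_mul hm (isCode_of_inE n0_inE) hP (ok_of_okP Q0_ok),
    mo_mul (isCode_of_inE n0_inE) hm (ok_of_okP Q0_ok) hP] at h1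
  obtain ⟨h3, h4⟩ := mo_inj (isCode_xor hm (isCode_pimg hP (isCode_of_inE n0_inE)))
    (isCode_xor (isCode_of_inE n0_inE) (isCode_pimg (ok_of_okP Q0_ok) hm)) h1
  have h5 := el_inj (ok_pcomp hP (ok_of_okP Q0_ok)) (ok_pcomp (ok_of_okP Q0_ok) hP) (pcomp_lt _ _) (pcomp_lt _ _) h4
  refine ⟨m, P, hmE, hPk, hlt, he, h3, fun i hi => ?_⟩
  rw [← papp_pcomp P Q0 hi, h5, papp_pcomp Q0 P hi]

/-! ### Commuting permutations -/

/-- iterates of the permutation -/
def qit (e x : ℕ) : ℕ := Nat.iterate (papp Q0) e x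

theorem qit_succ (e x : ℕ) : qit (e + 1) x = papp Q0 (qit e x) := Function.iterate_succ_apply' _ _ _

theorem qit_lt (e : ℕ) {x : ℕ} (hx : x < 24) : qit e x < 24 := by
  induction e with
  | zero => exact hx
  | succ e ih =>
    rw [qit_succ]
    exact papp_lt (ok_iff.1 (ok_of_okP Q0_ok)).1 ih

theorem it_comm {P : ℕ} (hc : ∀ i < 24, papp P (papp Q0 i) = papp Q0 (papp P i)) (e : ℕ) {x : ℕ} (hx : x < 24) :
    papp P (qit e x) = qit e (papp P x) := by
  induction e with
  | zero => rfl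
  | succ e ih => rw [qit_succ, qit_succ, hc _ (qit_lt e hx), ih]

/-- the table: representative and exponent -/
def tb : List (ℕ × ℕ) := [(0, 0), (1, 0), (2, 0), (1, 7), (4, 0), (4, 3), (2, 5), (2, 2), (1, 3), (2, 4), (1, 2),
  (1, 1), (2, 6), (2, 7), (1, 6), (2, 3), (1, 5), (17, 0), (1, 4), (17, 1), (2, 1), (4, 2), (4, 1), (23, 0)]

theorem tb_spec : ∀ i < 24, (tb.getD i (0, 0)).1 < 24 ∧ qit (tb.getD i (0, 0)).2 (tb.getD i (0, 0)).1 = i := by
  decide +kernel

/-- the candidate with given values at the representatives -/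
def cand (f : ℕ → ℕ) : List ℕ := (List.range 24).map fun i => qit (tb.getD i (0, 0)).2 (f (tb.getD i (0, 0)).1)

theorem eq_cand {P : ℕ} (hP : ok P = true) (hlt : P < 2 ^ 120)
    (hc : ∀ i < 24, papp P (papp Q0 i) = papp Q0 (papp P i)) : P = pack (cand (papp P)) := by
  have h3 : (32 : ℕ) ^ 24 = 2 ^ 120 := by norm_num
  have hp := (ok_iff.1 hP).1
  have hl : ∀ a ∈ cand (papp P), a < 32 := by
    intro a ha
    obtain ⟨i, hi, rfl⟩ := List.mem_map.1 ha
    exact lt_trans (qit_lt _ (papp_lt hp (tb_spec i (List.mem_range.1 hi)).1)) (by norm_num)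
  refine eq_of_papp 24 P _ (by rw [h3]; exact hlt) ?_ fun i hi => ?_
  · have h4 := pack_lt hl
    have h5 : (cand (papp P)).length = 24 := by
      unfold cand
      rw [List.length_map, List.length_range]
    rwa [h5] at h4
  · rw [papp_pack hl]
    unfold cand
    rw [List.getD_eq_getElem _ _ (by rw [List.length_map, List.length_range]; exact hi), List.getElem_map,
      List.getElem_range, ← it_comm hc _ (tb_spec i hi).1, (tb_spec i hi).2]

/-- values at the representatives -/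
def fv (a b r s t u k : ℕ) : ℕ :=
  if k = 1 then a else if k = 2 then b else if k = 4 then r else if k = 17 then s else if k = 0 then t else u

theorem tb_rep : ∀ i < 24, (tb.getD i (0, 0)).1 = 1 ∨ (tb.getD i (0, 0)).1 = 2 ∨ (tb.getD i (0, 0)).1 = 4 ∨
    (tb.getD i (0, 0)).1 = 17 ∨ (tb.getD i (0, 0)).1 = 0 ∨ (tb.getD i (0, 0)).1 = 23 := by decide +kernel

theorem cand_fv (P : ℕ) : cand (papp P) =
    cand (fv (papp P 1) (papp P 2) (papp P 4) (papp P 17) (papp P 0) (papp P 23)) := by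
  unfold cand
  refine List.map_congr_left fun i hi => ?_
  rcases tb_rep i (List.mem_range.1 hi) with h | h | h | h | h | h <;> rw [h] <;> rfl

/-- the cycles -/
def A8 : List ℕ := [1, 11, 10, 8, 18, 16, 14, 3]
/-- the cycles -/
def B8 : List ℕ := [2, 20, 7, 15, 9, 6, 12, 13]
/-- the cycles -/
def R4 : List ℕ := [4, 22, 21, 5]
/-- the cycles -/
def S2 : List ℕ := [17, 19]

theorem mem_AB : ∀ b < 24, qit 4 b ≠ b → b ∈ A8 ∨ b ∈ B8 := by decide +kernel
theorem mem_R : ∀ b < 24, qit 4 b = b → qit 2 b ≠ b → b ∈ R4 := by decide +kernel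
theorem mem_S : ∀ b < 24, qit 2 b = b → qit 1 b ≠ b → b ∈ S2 := by decide +kernel

/-- the candidates with `1 ↦ a` -/
def chkCand (a T : ℕ) : Bool := (A8 ++ B8).all fun b => R4.all fun r => S2.all fun s =>
  [(0, 23), (23, 0)].all fun t => !(ok (pack (cand (fv a b r s t.1 t.2)))) || Nat.beq (pack (cand (fv a b r s t.1 t.2))) T

/-- the element mapping `1` to `2` -/
def P1 : ℕ := 6095628560429804549585793617143895

theorem chk1 : chkCand 1 idP = true := by decide +kernel
theorem chk2 : chkCand 2 P1 = true := by decide +kernel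

theorem eq_of_chk {g : Spor.Co2} {m P a T : ℕ} (h : Dat g m P) (ha : papp P 1 = a) (hchk : chkCand a T = true) :
    P = T := by
  have hok := ok_of_okP h.okP
  have hp := (ok_iff.1 hok).1
  have e := eq_cand hok h.lt h.pm
  rw [cand_fv, ha] at e
  have hb : papp P 2 ∈ A8 ++ B8 := by
    rw [List.mem_append]
    refine mem_AB _ (papp_lt hp (by norm_num)) fun h1 => ?_
    rw [← it_comm h.pm 4 (by norm_num)] at h1
    have := papp_injOn hp (qit_lt 4 (by norm_num)) (by norm_num) h1
    revert this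
    decide +kernel
  have hr : papp P 4 ∈ R4 := by
    refine mem_R _ (papp_lt hp (by norm_num)) ?_ fun h1 => ?_
    · rw [← it_comm h.pm 4 (by norm_num), show qit 4 4 = 4 by decide +kernel]
    · rw [← it_comm h.pm 2 (by norm_num)] at h1
      have := papp_injOn hp (qit_lt 2 (by norm_num)) (by norm_num) h1
      revert this
      decide +kernel
  have hs : papp P 17 ∈ S2 := by
    refine mem_S _ (papp_lt hp (by norm_num)) ?_ fun h1 => ?_
    · rw [← it_comm h.pm 2 (by norm_num), show qit 2 17 = 17 by decide +kernel]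
    · rw [← it_comm h.pm 1 (by norm_num)] at h1
      have := papp_injOn hp (qit_lt 1 (by norm_num)) (by norm_num) h1
      revert this
      decide +kernel
  have ht : (papp P 0, papp P 23) ∈ [(0, 23), (23, 0)] := by
    rcases (okP_iff.1 h.okP).2 with ⟨h1, h2⟩ | ⟨h1, h2⟩ <;> rw [h1, h2] <;> simp
  have h1 := List.all_eq_true.1 (List.all_eq_true.1 (List.all_eq_true.1 (List.all_eq_true.1 hchk _ hb) _ hr) _ hs) _ ht
  simp only [← e, hok, Bool.not_true, Bool.false_or, Nat.beq_eq] at h1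
  exact h1

/-! ### The kernel checks on the code -/

theorem words1 : allR 12 0 (fun i => !(inE (enc i)) ||
    !(Nat.beq (enc i ^^^ pimg P1 n0) (n0 ^^^ pimg Q0 (enc i)))) = true := by decide +kernel

theorem words2 : allR 12 0 (fun i => !(inE (enc i)) || (!(Nat.beq (enc i) (pimg Q0 (enc i))) ||
    ((enc i).testBit 1 || ((enc i).testBit 2 || Nat.beq (enc i) 0)))) = true := by decide +kernel

theorem not_two {g : Spor.Co2} {m P : ℕ} (h : Dat g m P) : papp P 1 ≠ 2 := by
  intro h2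
  have hP := eq_of_chk h h2 chk2
  obtain ⟨i, hi, hm⟩ := isCode_iff_exists.1 (isCode_of_inE h.inE)
  have h1 := allR_zero_spec words1 i hi
  rw [← hm, h.inE, Bool.not_true, Bool.false_or, Bool.not_eq_true', ← Bool.not_eq_true, Nat.beq_eq] at h1
  exact h1 (hP ▸ h.sg)

theorem sq_of {g : Spor.Co2} (hg : g ∈ centralizer ({mo2 n0 Q0} : Set Spor.Co2)) (k : ℕ) :
    mo2 n0 Q0 ^ k * g ∈ centralizer ({mo2 n0 Q0} : Set Spor.Co2) := by
  refine mul_mem (pow_mem ?_ k) hg
  exact mem_centralizer_singleton_iff.2 rfl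

/-- the permutation of the powers of `y` -/
theorem mpw_perm (k : ℕ) : ∀ x < 24, papp (mpw n0 Q0 k).2 x = qit k x := by
  induction k with
  | zero =>
    intro x hx
    have h : ∀ i < 24, papp idP i = i := by decide +kernel
    exact h x hx
  | succ k ih =>
    intro x hx
    show papp (pcomp Q0 (mpw n0 Q0 k).2) x = _
    rw [papp_pcomp _ _ hx, ih x hx, qit_succ]

theorem back : ∀ b ∈ B8, ∃ k < 8, qit k b = 2 := by decide +kernel

theorem mem_A {g : Spor.Co2} (hg : g ∈ centralizer ({mo2 n0 Q0} : Set Spor.Co2)) {m P : ℕ} (h : Dat g m P) :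
    papp P 1 ∈ A8 := by
  have hok := ok_of_okP h.okP
  have hp := (ok_iff.1 hok).1
  have h1 : papp P 1 ∈ A8 ∨ papp P 1 ∈ B8 := by
    refine mem_AB _ (papp_lt hp (by norm_num)) fun h1 => ?_
    rw [← it_comm h.pm 4 (by norm_num)] at h1
    have := papp_injOn hp (qit_lt 4 (by norm_num)) (by norm_num) h1
    revert this
    decide +kernel
  refine h1.resolve_right fun h2 => ?_
  obtain ⟨k, -, hk⟩ := back _ h2
  obtain ⟨m', P', h'⟩ := exists_dat (sq_of hg k)
  have h3 := h'.eq
  obtain ⟨e1, e2, e3⟩ := mo2_pow n0_inE Q0_ok k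
  rw [map_mul, h.eq, e3, toCo0_mo2 e1 e2, mo_mul (isCode_of_inE e1) (isCode_of_inE h.inE) (ok_of_okP e2) hok] at h3
  obtain ⟨-, h4⟩ := mo_inj (isCode_xor (isCode_of_inE e1) (isCode_pimg (ok_of_okP e2) (isCode_of_inE h.inE)))
    (isCode_of_inE h'.inE) h3
  have h5 := el_inj (ok_pcomp (ok_of_okP e2) hok) (ok_of_okP h'.okP) (pcomp_lt _ _) h'.lt h4
  apply not_two h'
  rw [← h5, papp_pcomp _ _ (by norm_num), mpw_perm k _ (papp_lt hp (by norm_num)), hk]

/-! ### The centralizer -/

theorem centralizer_le : Nat.card (centralizer ({mo2 n0 Q0} : Set Spor.Co2)) ≤ 32 := by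
  classical
  have hd : ∀ g : centralizer ({mo2 n0 Q0} : Set Spor.Co2), ∃ mP : ℕ × ℕ, Dat g.1 mP.1 mP.2 := fun g => by
    obtain ⟨m, P, h⟩ := exists_dat g.2
    exact ⟨(m, P), h⟩
  choose D hD using hd
  let f : centralizer ({mo2 n0 Q0} : Set Spor.Co2) → (A8.toFinset × Bool × Bool) := fun g =>
    (⟨papp (D g).2 1, List.mem_toFinset.2 (mem_A g.2 (hD g))⟩, (D g).1.testBit (papp (D g).2 1),
      (D g).1.testBit (papp (D g).2 2))
  have hf : Function.Injective f := by
    intro g g' he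
    have he1 : papp (D g).2 1 = papp (D g').2 1 := congrArg (fun x => (x.1 : ℕ)) he
    have he2 : (D g).1.testBit (papp (D g).2 1) = (D g').1.testBit (papp (D g').2 1) := congrArg (fun x => x.2.1) he
    have he3 : (D g).1.testBit (papp (D g).2 2) = (D g').1.testBit (papp (D g').2 2) := congrArg (fun x => x.2.2) he
    have H := hD g
    have H' := hD g'
    obtain ⟨m, P, h⟩ := exists_dat (g⁻¹ * g').2
    generalize (D g).1 = n at *
    generalize (D g).2 = Q at *
    generalize (D g').1 = n' at *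
    generalize (D g').2 = Q' at *
    have hQ := (ok_iff.1 (ok_of_okP H.okP)).1
    have hP := (ok_iff.1 (ok_of_okP h.okP)).1
    have h1 : toCo0 g'.1 = toCo0 g.1 * toCo0 (g⁻¹ * g').1 := by
      rw [← map_mul]
      congr 1
      show g'.1 = g.1 * (g.1⁻¹ * g'.1)
      rw [mul_inv_cancel_left]
    rw [h.eq, H.eq, H'.eq, mo_mul (isCode_of_inE H.inE) (isCode_of_inE h.inE) (ok_of_okP H.okP) (ok_of_okP h.okP)]
      at h1
    obtain ⟨h2, h3⟩ := mo_inj (isCode_of_inE H'.inE)
      (isCode_xor (isCode_of_inE H.inE) (isCode_pimg (ok_of_okP H.okP) (isCode_of_inE h.inE))) h1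
    have h4 := el_inj (ok_of_okP H'.okP) (ok_pcomp (ok_of_okP H.okP) (ok_of_okP h.okP)) H'.lt (pcomp_lt _ _) h3
    have h5 : papp P 1 = 1 := by
      rw [h4, papp_pcomp _ _ (by norm_num)] at he1
      exact (papp_injOn hQ (by norm_num) (papp_lt hP (by norm_num)) he1).symm
    have h6 := eq_of_chk h h5 chk1
    have h7 : papp P 2 = 2 := by
      rw [h6]
      decide +kernel
    have h8 : m.testBit 1 = false := by
      rw [← he1, h2, Nat.testBit_xor, testBit_pimg_papp hQ m (by norm_num)] at he2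
      cases hb : m.testBit 1 with
      | false => rfl
      | true =>
        rw [hb, Bool.xor_true] at he2
        exact absurd he2.symm (by simp)
    have h9 : m.testBit 2 = false := by
      have h10 : papp Q' 2 = papp Q 2 := by rw [h4, papp_pcomp _ _ (by norm_num), h7]
      rw [h10, h2, Nat.testBit_xor, testBit_pimg_papp hQ m (by norm_num)] at he3
      cases hb : m.testBit 2 with
      | false => rfl
      | true =>
        rw [hb, Bool.xor_true] at he3
        exact absurd he3.symm (by simp)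
    have h10 : m = pimg Q0 m := by
      have h11 := h.sg
      rw [h6, show pimg idP n0 = n0 by decide +kernel, Nat.xor_comm] at h11
      exact Nat.xor_right_injective h11
    obtain ⟨i, hi, hm⟩ := isCode_iff_exists.1 (isCode_of_inE h.inE)
    have h11 := allR_zero_spec words2 i hi
    have h12 : Nat.beq m (pimg Q0 m) = true := by
      rw [Nat.beq_eq]
      exact h10
    rw [← hm, h.inE, h12, h8, h9, Bool.not_true, Bool.false_or, Bool.false_or, Bool.false_or, Bool.false_or,
      Nat.beq_eq] at h11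
    have h13 := h.eq
    rw [h11, h6, mo_one, ← map_one toCo0] at h13
    have h14 := toCo0_injective h13
    have h15 : g⁻¹ * g' = 1 := Subtype.ext h14
    exact (inv_mul_eq_one.1 h15)
  have h2 := Nat.card_le_card_of_injective f hf
  have h3 : Nat.card (A8.toFinset × Bool × Bool) = 32 := by
    rw [Nat.card_eq_fintype_card, Fintype.card_prod, Fintype.card_prod, Fintype.card_coe, Fintype.card_bool]
    decide +kernel
  exact h2.trans_eq h3

/-! ### Rationality -/

/-- the conjugation certificate: `mo2 a P` conjugates `y` to `y ^ k` -/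
def conjB (k a P : ℕ) : Bool := inE a && (okP P && peq (a ^^^ pimg P n0, pcomp P Q0)
  ((mpw n0 Q0 k).1 ^^^ pimg (mpw n0 Q0 k).2 a, pcomp (mpw n0 Q0 k).2 P))

theorem conj_of {k a P : ℕ} (h : conjB k a P = true) : IsConj (mo2 n0 Q0 ^ k) (mo2 n0 Q0) := by
  unfold conjB at h
  rw [Bool.and_eq_true, Bool.and_eq_true, peq_iff] at h
  obtain ⟨ha, hP, he⟩ := h
  obtain ⟨e1, e2, e3⟩ := mo2_pow n0_inE Q0_ok k
  obtain ⟨he1, he2⟩ := Prod.mk.inj he
  have h1 : mo2 a P * mo2 n0 Q0 = mo2 n0 Q0 ^ k * mo2 a P := by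
    rw [e3, mo2_mul ha n0_inE hP Q0_ok, mo2_mul e1 ha e2 hP, he1, he2]
  refine (isConj_iff.2 ⟨mo2 a P, ?_⟩ : IsConj (mo2 n0 Q0) (mo2 n0 Q0 ^ k)).symm
  rw [h1, mul_inv_cancel_right]

theorem conj3 : IsConj (mo2 n0 Q0 ^ 3) (mo2 n0 Q0) :=
  conj_of (a := 5939296) (P := 5405947491382263735420182690202711) (by decide +kernel)

theorem conj15 : IsConj (mo2 n0 Q0 ^ 15) (mo2 n0 Q0) :=
  conj_of (a := 3294342) (P := 7368360906821610290156470591134775) (by decide +kernel)

theorem y_pow : mo2 n0 Q0 ^ 16 = 1 := by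
  have h : peq (mpw n0 Q0 16) (0, idP) = true := by decide +kernel
  rw [(mo2_pow n0_inE Q0_ok 16).2.2, peq_iff.1 h, mo2_one]

theorem conj_mul {a b : ℕ} (ha : IsConj (mo2 n0 Q0 ^ a) (mo2 n0 Q0)) (hb : IsConj (mo2 n0 Q0 ^ b) (mo2 n0 Q0)) :
    IsConj (mo2 n0 Q0 ^ (a * b)) (mo2 n0 Q0) := by
  rw [pow_mul]
  obtain ⟨c, hc⟩ := isConj_iff.1 ha
  refine IsConj.trans (isConj_iff.2 ⟨c, ?_⟩) hb
  rw [← conj_pow, hc]

theorem pow_mod_y (k : ℕ) : mo2 n0 Q0 ^ (k % 16) = mo2 n0 Q0 ^ k := by
  conv_rhs => rw [← Nat.div_add_mod k 16, pow_add, pow_mul, y_pow, one_pow, one_mul]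

/-- **`y` is rational.** -/
theorem rational {k : ℕ} (hk : k.Coprime 2) : IsConj (mo2 n0 Q0 ^ k) (mo2 n0 Q0) := by
  have h1 : k % 2 = 1 := Nat.odd_iff.1 (Nat.coprime_two_right.1 hk)
  rw [← pow_mod_y]
  have c9 := conj_mul conj3 conj3
  have c27 := conj_mul c9 conj3
  have c45 := conj_mul conj15 conj3
  have c135 := conj_mul conj15 c9
  have c405 := conj_mul conj15 c27
  rw [← pow_mod_y] at c9 c27 c45 c135 c405
  have h2 : k % 16 = 1 ∨ k % 16 = 3 ∨ k % 16 = 5 ∨ k % 16 = 7 ∨ k % 16 = 9 ∨ k % 16 = 11 ∨ k % 16 = 13 ∨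
      k % 16 = 15 := by omega
  rcases h2 with h | h | h | h | h | h | h | h <;> rw [h]
  · rw [pow_one]
  · exact conj3
  · exact c405
  · exact c135
  · exact c9
  · exact c27
  · exact c45
  · exact conj15

end Cfsg.Agent.H490.OZ.Sixteen
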